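import Cfsg.Agent.H985.VZ.TOp

/-!
# S4842: the cells and the degree formula for a one-dimensional `V_l` (helper985)

* `card_cell_simple` : `|B s_i w B| = q_i |B w B|` if `l(s_i w) > l(w)`;
* `degree` : `V_l = ℂ v`, `l` fixed by `W`, `T_i v = x_i v`: there is `ψ : W → ℂ` with `ψ 1 = 1`, `ψ (s_i w) = y_i ψ w` if
  `l(s_i w) > l(w)`, `y_i = q_i x_i² / l(n_i²)`, and `χ(1) |B| ∑ ψ = |Y|`;
* `dih_sum` : the sum of such a function over a dihedral group of order `4 m`.
-/

set_option autoImplicit false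
set_option linter.unusedSectionVars false

open Cfsg

namespace Cfsg.Agent.H985.VZ

open CoxeterSystem Cfsg.Agent.ChevalleyStructure.CoxeterGeom Cfsg.Agent.Tits.Roots Cfsg.Agent.Tits.Core
  Cfsg.Agent.Tits.Exchange Cfsg.Agent.Nodes.Reps Cfsg.Agent.Nodes.BNOf Cfsg.Agent.Nodes.StabComb
  Cfsg.Agent.Nodes.Bruhat Cfsg.Agent.Nodes.OppDec Cfsg.Agent.Nodes.LeviDec Module

universe u v

section dih

variable {I W : Type*} [Fintype I] [DecidableEq I] [Group W] {M : CoxeterMatrix I} (cs : CoxeterSystem M W)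
  {A : I → I → ℤ} (h : IsCartan M A)

/-- alternating products: `ua a b 0 = 1`, `ua a b (k+1) = s_a (ua b a k)` -/
def ua (a b : I) : ℕ → W
  | 0 => 1
  | k + 1 => cs.simple a * ua b a k

theorem ua_succ (a b : I) (k : ℕ) : ua cs a b (k + 1) = cs.simple a * ua cs b a k := rfl

theorem ua_eq (a b : I) (k : ℕ) : ua cs a b k = (cs.wordProd (alternatingWord b a k))⁻¹ := by
  induction k generalizing a b with
  | zero => simp [ua, alternatingWord]
  | succ k ih =>
    rw [ua_succ, ih, alternatingWord_succ, cs.wordProd_concat, mul_inv_rev, cs.inv_simple]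

include h in
theorem length_ua {a b : I} (hab : a ≠ b) {k : ℕ} (hk : k ≤ M a b) : cs.length (ua cs a b k) = k := by
  induction k generalizing a b with
  | zero => simp [ua]
  | succ k ih =>
    have h1 : cs.length (ua cs b a k) = k := ih hab.symm (by rw [M.symmetric]; omega)
    have h2 : cs.length (cs.wordProd (alternatingWord a b k)) <
        cs.length (cs.wordProd (alternatingWord a b k) * cs.simple a) := by
      rw [lt_iff' cs h]
      obtain ⟨x, y, hx, hy, e⟩ := exists_nonneg cs h a b hab k (by omega)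
      rw [e]
      exact add_nonneg (Pi.single_nonneg.2 hx) (Pi.single_nonneg.2 hy)
    rw [ua_eq, cs.length_inv] at h1
    rw [ua_succ, ua_eq, ← cs.length_inv, mul_inv_rev, inv_inv, cs.inv_simple]
    have h3 := cs.length_mul_simple (cs.wordProd (alternatingWord a b k)) a
    omega

theorem ua_M (a b : I) : ua cs a b (M a b) = ua cs b a (M a b) := by
  rw [ua_eq, ua_eq]
  congr 1
  have h1 := cs.wordProd_braidWord_eq b a
  unfold braidWord at h1
  rw [M.symmetric b a] at h1
  exact h1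

include h in
/-- the sum over the dihedral group -/
theorem dih_sum [Fintype W] {a b : I} (hab : a ≠ b) (hI : ∀ i, i = a ∨ i = b) {m : ℕ} (hm : M a b = 2 * m) (hm0 : 0 < m)
    {ψ : W → ℂ} {y : I → ℂ} (h1 : ψ 1 = 1)
    (hs : ∀ i w, cs.length w < cs.length (cs.simple i * w) → ψ (cs.simple i * w) = y i * ψ w) :
    ∑ w, ψ w = (1 + y a) * (1 + y b) * ∑ i ∈ Finset.range m, (y a * y b) ^ i := by
  classical
  have hM : M b a = 2 * m := by rw [M.symmetric, hm]
  have hstep : ∀ (a b : I), a ≠ b → M a b = 2 * m → ∀ k, k < 2 * m → ψ (ua cs a b (k + 1)) = y a * ψ (ua cs b a k) := by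
    intro a b hab hm k hk
    rw [ua_succ]
    refine hs a _ ?_
    rw [← ua_succ, length_ua cs h hab (by omega), length_ua cs h hab.symm (by rw [M.symmetric]; omega)]
    omega
  have hval : ∀ (a b : I), a ≠ b → M a b = 2 * m → ∀ j, 2 * j ≤ 2 * m → ψ (ua cs a b (2 * j)) = (y a * y b) ^ j := by
    intro a b hab hm j
    induction j with
    | zero =>
      intro _
      simp [ua, h1]
    | succ j ih =>
      intro hj
      rw [show 2 * (j + 1) = (2 * j + 1) + 1 by ring, hstep a b hab hm _ (by omega),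
        hstep b a hab.symm (by rw [M.symmetric, hm]) _ (by omega), ih (by omega), pow_succ]
      ring
  have hodd : ∀ (a b : I), a ≠ b → M a b = 2 * m → ∀ j, 2 * j + 1 ≤ 2 * m →
      ψ (ua cs a b (2 * j + 1)) = y a * (y a * y b) ^ j := by
    intro a b hab hm j hj
    rw [hstep a b hab hm _ (by omega), hval b a hab.symm (by rw [M.symmetric, hm]) _ (by omega), mul_comm (y b)]
  -- the bijection
  let e : Fin (2 * m) × Bool → W := fun x => if x.2 then ua cs b a (x.1 + 1) else ua cs a b x.1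
  have hinj : Function.Injective e := by
    have key : ∀ k k' : Fin (2 * m), ua cs a b k = ua cs b a (k' + 1) → False := by
      intro k k' e1
      have h2 := congrArg cs.length e1
      rw [length_ua cs h hab (by omega), length_ua cs h hab.symm (by omega)] at h2
      -- left descents
      have h3 : cs.length (cs.simple a * ua cs a b k) = k - 1 := by
        have h4 : (k : ℕ) = (k - 1) + 1 := by omega
        rw [h4, ua_succ, cs.simple_mul_simple_cancel_left, length_ua cs h hab.symm (by omega)]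
        omega
      have h5 : cs.length (cs.simple a * ua cs a b k) = k + 1 := by
        rw [e1, ← ua_succ, length_ua cs h hab (by omega), h2]
      omega
    rintro ⟨k, s⟩ ⟨k', s'⟩ hk
    cases s <;> cases s'
    · have h2 : ua cs a b k = ua cs a b k' := hk
      have h3 := congrArg cs.length h2
      rw [length_ua cs h hab (by omega), length_ua cs h hab (by omega)] at h3
      rw [Fin.ext h3]
    · exact (key k k' hk).elim
    · exact (key k' k hk.symm).elim
    · have h2 : ua cs b a (k + 1) = ua cs b a (k' + 1) := hk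
      have h3 := congrArg cs.length h2
      rw [length_ua cs h hab.symm (by omega), length_ua cs h hab.symm (by omega)] at h3
      rw [Fin.ext (Nat.succ_injective h3)]
  have hall : ∀ w : W, ∃ k, k ≤ 2 * m ∧ (w = ua cs a b k ∨ w = ua cs b a k) := by
    have hstep' : ∀ (a b : I), a ≠ b → M a b = 2 * m → ∀ w, (∃ k, k ≤ 2 * m ∧ (w = ua cs a b k ∨ w = ua cs b a k)) →
        ∃ k, k ≤ 2 * m ∧ (cs.simple a * w = ua cs a b k ∨ cs.simple a * w = ua cs b a k) := by
      rintro a b hab hm w ⟨k, hk, h2 | h2⟩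
      · rcases Nat.eq_zero_or_pos k with h3 | h3
        · subst h3
          refine ⟨1, by omega, Or.inl ?_⟩
          rw [h2]
          rfl
        · refine ⟨k - 1, by omega, Or.inr ?_⟩
          rw [h2]
          conv_lhs => rw [show k = (k - 1) + 1 by omega]
          rw [ua_succ, cs.simple_mul_simple_cancel_left]
      · rcases Nat.lt_or_ge k (2 * m) with h3 | h3
        · refine ⟨k + 1, by omega, Or.inl ?_⟩
          rw [h2, ua_succ]
        · have h4 : k = 2 * m := le_antisymm hk h3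
          refine ⟨k - 1, by omega, Or.inr ?_⟩
          have h5 := ua_M cs a b
          rw [hm, ← h4] at h5
          rw [h2, ← h5]
          conv_lhs => rw [show k = (k - 1) + 1 by omega]
          rw [ua_succ, cs.simple_mul_simple_cancel_left]
    intro w
    obtain ⟨ω, rfl⟩ := cs.wordProd_surjective w
    induction ω with
    | nil => exact ⟨0, by omega, Or.inl (by rw [wordProd_nil]; rfl)⟩
    | cons i ω ih =>
      rw [wordProd_cons]
      rcases hI i with rfl | rfl
      · exact hstep' _ _ hab hm _ ih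
      · obtain ⟨k, hk, h2⟩ := ih
        obtain ⟨k', hk', h3⟩ := hstep' _ _ hab.symm hM _ ⟨k, hk, h2.symm⟩
        exact ⟨k', hk', h3.symm⟩
  have hsurj : Function.Surjective e := by
    intro w
    obtain ⟨k, hk, h2 | h2⟩ := hall w
    · rcases Nat.lt_or_ge k (2 * m) with h3 | h3
      · exact ⟨(⟨k, h3⟩, false), h2.symm⟩
      · have h4 : k = 2 * m := le_antisymm hk h3
        refine ⟨(⟨k - 1, by omega⟩, true), ?_⟩
        have h5 := ua_M cs a b
        rw [hm, ← h4] at h5
        rw [h2, h5]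
        change ua cs b a (k - 1 + 1) = _
        rw [Nat.sub_add_cancel (by omega)]
    · rcases Nat.eq_zero_or_pos k with h3 | h3
      · subst h3
        exact ⟨(⟨0, by omega⟩, false), h2.symm⟩
      · refine ⟨(⟨k - 1, by omega⟩, true), ?_⟩
        change ua cs b a (k - 1 + 1) = _
        rw [Nat.sub_add_cancel h3, h2]
  rw [← Equiv.sum_comp (Equiv.ofBijective e ⟨hinj, hsurj⟩) ψ, Fintype.sum_prod_type]
  have e1 : ∀ x : Fin (2 * m), ∑ s : Bool, ψ (Equiv.ofBijective e ⟨hinj, hsurj⟩ (x, s)) =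
      ψ (ua cs b a (x + 1)) + ψ (ua cs a b x) := fun x => Fintype.sum_bool _
  rw [Finset.sum_congr rfl fun x _ => e1 x, Finset.sum_range (n := 2 * m) (fun k => ψ (ua cs b a (k + 1)) + ψ (ua cs a b k)) |>.symm]
  have e2 : ∀ j ≤ m, ∑ k ∈ Finset.range (2 * j), (ψ (ua cs b a (k + 1)) + ψ (ua cs a b k)) =
      (1 + y a) * (1 + y b) * ∑ i ∈ Finset.range j, (y a * y b) ^ i := by
    intro j
    induction j with
    | zero => intro _; simp
    | succ j ih =>
      intro hj
      rw [show 2 * (j + 1) = 2 * j + 1 + 1 by ring, Finset.sum_range_succ, Finset.sum_range_succ, ih (by omega),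
        Finset.sum_range_succ _ j, hodd b a hab.symm hM j (by omega), hval a b hab hm j (by omega),
        show 2 * j + 1 + 1 = 2 * (j + 1) by ring, hval b a hab.symm hM (j + 1) (by omega), hodd a b hab hm j (by omega),
        mul_comm (y b) (y a), pow_succ]
      ring
  exact e2 m le_rfl

end dih

section cells

variable {I W : Type*} {Y : Type u} [Fintype I] [DecidableEq I] [Group W] [Group Y] {M : CoxeterMatrix I}
  {cs : CoxeterSystem M W} {A : I → I → ℤ} {h : IsCartan M A} {p : ℕ} {T : Subgroup Y} {n : I → Y}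
  {X : (I → ℤ) → Subgroup Y} (R : RGD cs h p T n X) [Finite W] {V : Type v} [AddCommGroup V] [Module ℂ V]
  {ρ : Representation ℂ Y V}

include R

/-- `x = x' c`, `x' ∈ X_i`, `c = y t` -/
theorem mem_B_left (i : I) {b : Y} (hb : b ∈ RGD.B cs h T X) :
    ∃ x ∈ X (sr i), ∃ y ∈ RGD.Sup X (RGD.PosNe cs h i), ∃ t ∈ T, b = x * (y * t) := by
  obtain ⟨y, hy, x, hx, t, ht, rfl⟩ := R.mem_B' i hb
  refine ⟨x, hx, x⁻¹ * y * x, ?_, t, ht, by group⟩
  have h1 := (Subgroup.mem_normalizer_iff.1 (R.X_le_normalizer_V i (inv_mem hx)) y).1 hy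
  rwa [inv_inv] at h1

omit R [Finite W] in
theorem PosNe_le_B (i : I) : RGD.Sup X (RGD.PosNe cs h i) ≤ RGD.B cs h T X :=
  le_trans (RGD.Sup_mono (fun _ hz => (⟨hz.1, hz.2.1⟩ : _ ∈ RGD.Pos cs h))) RGD.U_le_B

theorem conj_inv_mem_PosNe {i : I} {y : Y} (hy : y ∈ RGD.Sup X (RGD.PosNe cs h i)) :
    (n i)⁻¹ * y * n i ∈ RGD.Sup X (RGD.PosNe cs h i) := by
  have h1 := R.cj_n_V i
  have h2 : y ∈ cj (n i) (RGD.Sup X (RGD.PosNe cs h i)) := by rw [h1]; exact hy
  exact mem_cj.1 h2

theorem conj_inv_mem_T (i : I) {t : Y} (ht : t ∈ T) : (n i)⁻¹ * t * n i ∈ T := by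
  have := (Subgroup.mem_normalizer_iff.1 (inv_mem (R.nsys.norm i)) t).1 ht
  rwa [inv_inv] at this

theorem rp_inv_mul {i : I} {w : W} {k : Y} (hk : Rp cs R.nsys (cs.simple i * w) k) : Rp cs R.nsys w ((n i)⁻¹ * k) := by
  have h1 := (rp_simple cs R.nsys i).inv.mul hk
  rwa [cs.inv_simple, cs.simple_mul_simple_cancel_left] at h1

theorem card_cell_simple [Finite Y] {i : I} {w : W} (hl : cs.length w < cs.length (cs.simple i * w)) :
    Nat.card {g : Y // Cell R.nsys cs h X (cs.simple i * w) g} =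
      qq X i * Nat.card {g : Y // Cell R.nsys cs h X w g} := by
  have hlen : cs.length (cs.simple i * w) = cs.length (cs.simple i) + cs.length w := by
    have := cs.length_simple_mul w i
    rw [cs.length_simple]
    omega
  have hmem : ∀ x ∈ X (sr i), ∀ z, Cell R.nsys cs h X w z → Cell R.nsys cs h X (cs.simple i * w) (x * n i * z) :=
    fun x hx z hz => Cell.mul_of_length R hlen
      ((cell_of_rp (rp_simple cs R.nsys i)).mul_left (RGD.X_le_B (isRoot_sr cs h i) (sr_nonneg i) hx)) hz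
  unfold qq
  rw [← Nat.card_prod]
  symm
  refine Nat.card_congr (Equiv.ofBijective (fun q : X (sr i) × {g : Y // Cell R.nsys cs h X w g} =>
    (⟨q.1 * n i * q.2, hmem q.1 q.1.2 q.2 q.2.2⟩ : {g : Y // Cell R.nsys cs h X (cs.simple i * w) g})) ⟨?_, ?_⟩)
  · rintro ⟨⟨x, hx⟩, ⟨z, hz⟩⟩ ⟨⟨x', hx'⟩, ⟨z', hz'⟩⟩ e
    have e : x * n i * z = x' * n i * z' := congrArg Subtype.val e
    have h1 : x' = x := by
      by_contra hne
      have h2 : (n i)⁻¹ * (x'⁻¹ * x) * n i ∈ X (-sr i) := by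
        have := R.conj_mem' (rp_simple cs R.nsys i) (isRoot_sr cs h i) (mul_mem (inv_mem hx') hx)
        rwa [cs.inv_simple, rep_simple_sr] at this
      have h3 : (n i)⁻¹ * (x'⁻¹ * x) * n i ≠ 1 := by
        intro h4
        apply hne
        have h5 : x'⁻¹ * x = n i * ((n i)⁻¹ * (x'⁻¹ * x) * n i) * (n i)⁻¹ := by group
        rw [h4, mul_one, mul_inv_cancel] at h5
        exact inv_mul_eq_one.1 h5
      obtain ⟨a, ha, t, ht, b, hb, e2⟩ := R.rk1 i _ h2 h3
      have h4 : Cell R.nsys cs h X (cs.simple i) ((n i)⁻¹ * (x'⁻¹ * x) * n i) := by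
        rw [e2]
        exact ((cell_of_rp (rp_simple cs R.nsys i)).mul_left
          (mul_mem (RGD.X_le_B (isRoot_sr cs h i) (sr_nonneg i) ha) (RGD.T_le_B ht))).mul_right
          (RGD.X_le_B (isRoot_sr cs h i) (sr_nonneg i) hb)
      have h5 := Cell.mul_of_length R hlen h4 hz
      have h6 : (n i)⁻¹ * (x'⁻¹ * x) * n i * z = z' := by
        have h7 : (n i)⁻¹ * (x'⁻¹ * x) * n i * z = (n i)⁻¹ * x'⁻¹ * (x * n i * z) := by group
        rw [h7, e]
        group
      rw [h6] at h5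
      have h7 := Cell.unique R h5 hz'
      rw [h7] at hl
      exact lt_irrefl _ hl
    subst h1
    have h2 : z = z' := mul_left_cancel e
    subst h2
    rfl
  · rintro ⟨g, b₁, hb₁, k, hk, b₂, hb₂, rfl⟩
    obtain ⟨x, hx, y, hy, t, ht, rfl⟩ := mem_B_left R i hb₁
    have h1 : Cell R.nsys cs h X w ((n i)⁻¹ * x⁻¹ * (x * (y * t) * k * b₂)) := by
      refine ⟨((n i)⁻¹ * y * n i) * ((n i)⁻¹ * t * n i), mul_mem (PosNe_le_B i (conj_inv_mem_PosNe R hy))
        (RGD.T_le_B (conj_inv_mem_T R i ht)), (n i)⁻¹ * k, rp_inv_mul R hk, b₂, hb₂, by group⟩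
    refine ⟨(⟨x, hx⟩, ⟨_, h1⟩), Subtype.ext ?_⟩
    change x * n i * ((n i)⁻¹ * x⁻¹ * (x * (y * t) * k * b₂)) = x * (y * t) * k * b₂
    group

theorem card_cell_one [Finite Y] : Nat.card {g : Y // Cell R.nsys cs h X (1 : W) g} = Nat.card (RGD.B cs h T X) :=
  Nat.card_congr (Equiv.subtypeEquivRight fun _ => ⟨fun h => h.mem_of_one, fun h => cell_one_of_mem h⟩)

section deg

variable [Finite Y]

/-- the dual step -/
theorem el_n_dual {i : I} {l : T →* ℂˣ} (hm : Mv cs R.nsys (cs.simple i) l l) {v : V} (hv : v ∈ Vl cs h T X ρ l)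
    {Φ : V →ₗ[ℂ] V} (hΦ : ∀ x ∈ X (sr i), ∀ z, Φ (ρ x z) = Φ z) :
    Φ (el ρ (RGD.B cs h T X) (lamB R l) (ρ (n i)⁻¹ v)) = Φ (ρ (n i)⁻¹ v) := by
  classical
  let _ : Fintype (RGD.B cs h T X) := Fintype.ofFinite _
  have hvB := hv
  rw [Vl_eq R] at hvB
  rw [el_apply ρ _ (lamB R l), map_smul, map_sum]
  have key : ∀ b : RGD.B cs h T X, Φ (((lamB R l b)⁻¹ : ℂˣ).val • ρ b (ρ (n i)⁻¹ v)) = Φ (ρ (n i)⁻¹ v) := by
    intro b
    obtain ⟨x, hx, y, hy, t, ht, e⟩ := mem_B_left R i b.2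
    have hn1 : n i * y * (n i)⁻¹ ∈ RGD.Sup X (RGD.PosNe cs h i) := by
      rw [← R.cj_n_V i]
      exact conj_mem_cj.2 hy
    have hn2 : n i * t * (n i)⁻¹ ∈ T := (Subgroup.mem_normalizer_iff.1 (R.nsys.norm i) t).1 ht
    have hc : y * t ∈ RGD.B cs h T X := mul_mem (PosNe_le_B i hy) (RGD.T_le_B ht)
    have hcB : n i * (y * t) * (n i)⁻¹ ∈ RGD.B cs h T X := by
      have h3 : n i * (y * t) * (n i)⁻¹ = (n i * y * (n i)⁻¹) * (n i * t * (n i)⁻¹) := by group
      rw [h3]
      exact mul_mem (PosNe_le_B i hn1) (RGD.T_le_B hn2)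
    have hxU : x ∈ RGD.Sup X (RGD.Pos cs h) := by
      have h1 : sr i ∈ RGD.Pos cs h := ⟨isRoot_sr cs h i, sr_nonneg i⟩
      exact RGD.le_Sup h1 hx
    have e2 : lamB R l b = lamB R l ⟨y * t, hc⟩ := by
      have h3 : b = ⟨x, RGD.U_le_B hxU⟩ * ⟨y * t, hc⟩ := Subtype.ext e
      rw [h3, map_mul, lamB_U R l hxU, one_mul]
    have e4 : lamB R l ⟨n i * (y * t) * (n i)⁻¹, hcB⟩ = lamB R l ⟨y * t, hc⟩ :=
      lamB_conj R (rp_simple cs R.nsys i) hm rfl
    have e3 : ρ b (ρ (n i)⁻¹ v) = ρ x (ρ (n i)⁻¹ (ρ (n i * (y * t) * (n i)⁻¹) v)) := by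
      rw [e, ← Module.End.mul_apply, ← map_mul, ← Module.End.mul_apply, ← map_mul, ← Module.End.mul_apply, ← map_mul]
      congr 2
      group
    have e5 := hvB ⟨_, hcB⟩
    change ρ (n i * (y * t) * (n i)⁻¹) v = _ at e5
    rw [e3, map_smul, hΦ x hx, e5, map_smul, map_smul, e4, e2, smul_smul, Units.inv_mul, one_smul]
  rw [Finset.sum_congr rfl fun b _ => key b, Finset.sum_const, Finset.card_univ, ← Nat.card_eq_fintype_card,
    ← Nat.cast_smul_eq_nsmul ℂ, smul_smul, inv_mul_cancel₀ (card_ne _), one_smul]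

/-- **the degree formula** -/
theorem degree [FiniteDimensional ℂ V] [Fintype W] (hG : GG cs h T X = ⊤) (hρ : ρ.IsIrreducible) {l : T →* ℂˣ}
    (hf : ∀ i, Mv cs R.nsys (cs.simple i) l l) {v : V} (hv0 : v ≠ 0) (hE : Vl cs h T X ρ l = ℂ ∙ v) {x : I → ℂ}
    (hx : ∀ i, Tq R ρ i l v = x i • v) : ∃ ψ : W → ℂ, ψ 1 = 1 ∧
      (∀ i w, cs.length w < cs.length (cs.simple i * w) → ψ (cs.simple i * w) =
        (qq X i * x i ^ 2 * ((l ⟨n i * n i, R.sq_mem_T i⟩)⁻¹ : ℂˣ).val) * ψ w) ∧
      ρ.character 1 * (Nat.card (RGD.B cs h T X) * ∑ w, ψ w) = Nat.card Y := by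
  classical
  let _ : Fintype Y := Fintype.ofFinite Y
  have hv : v ∈ Vl cs h T X ρ l := by rw [hE]; exact Submodule.mem_span_singleton_self v
  have hvB := hv
  rw [Vl_eq R] at hvB
  set P := el ρ (RGD.B cs h T X) (lamB R l) with hP
  have hex : ∀ g : Y, ∃ c : ℂ, P (ρ g v) = c • v := by
    intro g
    have h1 : P (ρ g v) ∈ Vl cs h T X ρ l := by rw [Vl_eq R]; exact el_mem _ _ _ _
    rw [hE] at h1
    obtain ⟨c, hc⟩ := Submodule.mem_span_singleton.1 h1
    exact ⟨c, hc.symm⟩
  choose f hfv using hex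
  have hinj : ∀ {a b : ℂ}, a • v = b • v → a = b := fun {a b} hab => by
    have h1 : (a - b) • v = 0 := by rw [sub_smul, hab, sub_self]
    rcases smul_eq_zero.1 h1 with h2 | h2
    · exact sub_eq_zero.1 h2
    · exact absurd h2 hv0
  -- translations
  have hfl : ∀ (b : RGD.B cs h T X) (g : Y), f (b * g) = (lamB R l b : ℂ) * f g := by
    intro b g
    apply hinj
    rw [← hfv, mul_smul, ← hfv g, map_mul, Module.End.mul_apply, el_rho]
  have hfr : ∀ (b : RGD.B cs h T X) (g : Y), f (g * b) = f g * (lamB R l b : ℂ) := by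
    intro b g
    apply hinj
    rw [← hfv, mul_comm, mul_smul, ← hfv g, map_mul, Module.End.mul_apply, hvB b, map_smul, map_smul]
  have hφ : ∀ (b b' : RGD.B cs h T X) (g : Y), f (b * g * b') * f (b * g * b')⁻¹ = f g * f g⁻¹ := by
    intro b b' g
    have h1 : ((b : Y) * g * b')⁻¹ = ((b'⁻¹ : RGD.B cs h T X) : Y) * g⁻¹ * ((b⁻¹ : RGD.B cs h T X) : Y) := by
      rw [Subgroup.coe_inv, Subgroup.coe_inv]
      group
    rw [h1, hfr b', hfl b, hfr, hfl, map_inv, map_inv]
    have h2 : (lamB R l b : ℂ) ≠ 0 := Units.ne_zero _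
    have h3 : (lamB R l b' : ℂ) ≠ 0 := Units.ne_zero _
    rw [Units.val_inv_eq_inv_val, Units.val_inv_eq_inv_val]
    field_simp
  -- the values at the simple reflections
  have hni : ∀ i, f (n i) = x i := fun i => hinj (by rw [← hfv, ← hx i, Tq_apply R hv])
  have hni' : ∀ i, f (n i)⁻¹ = x i * ((l ⟨n i * n i, R.sq_mem_T i⟩)⁻¹ : ℂˣ).val := by
    intro i
    have h1 : (n i)⁻¹ = n i * ((⟨n i * n i, RGD.T_le_B (R.sq_mem_T i)⟩⁻¹ : RGD.B cs h T X) : Y) := by
      rw [Subgroup.coe_inv]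
      change (n i)⁻¹ = n i * (n i * n i)⁻¹
      group
    rw [h1, hfr, hni, map_inv, lamB_T R l (R.sq_mem_T i)]
  -- multiplicativity
  have hm1 : ∀ i w g, Rp cs R.nsys w g → cs.length w < cs.length (cs.simple i * w) → f (n i * g) = x i * f g ∧
      f (n i * g)⁻¹ = f (n i)⁻¹ * f g⁻¹ := by
    intro i w g hg hl
    have h3 : 0 ≤ rep cs h w⁻¹ (sr i) := by
      refine nonneg_of_lt cs h _ i ?_
      rw [cs.length_inv, ← cs.length_inv (w⁻¹ * cs.simple i), mul_inv_rev, inv_inv, cs.inv_simple]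
      exact hl
    constructor
    · have h4 := rho_fx_X R hg (isRoot_sr cs h i) h3 hv.1
      have h5 := el_n R (hf i) h4
      apply hinj
      rw [← hfv, map_mul, Module.End.mul_apply, ← h5, ← hP, hfv g, map_smul, map_smul, ← Tq_apply R hv, hx i, smul_smul,
        mul_comm]
    · have h4 := el_n_dual R (hf i) hv (Φ := P * ρ g⁻¹) fun y hy z => by
        have h5 : g⁻¹ * y * g ∈ RGD.Sup X (RGD.Pos cs h) :=
          RGD.le_Sup (S := RGD.Pos cs h) ⟨(isRoot_sr cs h i).act _, h3⟩ (R.conj_mem' hg (isRoot_sr cs h i) hy)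
        have h6 := el_rho ρ (RGD.B cs h T X) (lamB R l) ⟨_, RGD.U_le_B h5⟩ (ρ g⁻¹ z)
        rw [lamB_U R l h5, Units.val_one, one_smul] at h6
        rw [Module.End.mul_apply, Module.End.mul_apply, ← h6]
        change _ = P (ρ (g⁻¹ * y * g) (ρ g⁻¹ z))
        congr 1
        rw [← Module.End.mul_apply, ← map_mul, ← Module.End.mul_apply, ← map_mul]
        congr 2
        group
      apply hinj
      rw [← hP, hfv, map_smul, Module.End.mul_apply, hfv, smul_smul] at h4
      rw [← hfv, mul_inv_rev, map_mul, Module.End.mul_apply, h4]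
      rfl
  -- representatives
  choose gw hgw using fun w => exists_rp cs R.nsys w
  have hcell : ∀ w g, Cell R.nsys cs h X w g → f g * f g⁻¹ = f (gw w) * f (gw w)⁻¹ := by
    rintro w g ⟨b₁, hb₁, k, hk, b₂, hb₂, rfl⟩
    have h1 : (gw w)⁻¹ * k ∈ T := (hgw w).unique hk
    have h2 : b₁ * k * b₂ = ((⟨b₁, hb₁⟩ : RGD.B cs h T X) : Y) * gw w *
        ((⟨(gw w)⁻¹ * k * b₂, mul_mem (RGD.T_le_B h1) hb₂⟩ : RGD.B cs h T X) : Y) := by
      change b₁ * k * b₂ = b₁ * gw w * ((gw w)⁻¹ * k * b₂)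
      group
    rw [h2, hφ]
  have hYc : ∀ g : Y, ∃ w, Cell R.nsys cs h X w g := fun g => (mem_GG R).1 (by rw [hG]; exact Subgroup.mem_top g)
  choose wd hwd using hYc
  have hB0 : (Nat.card (RGD.B cs h T X) : ℂ) ≠ 0 := card_ne _
  refine ⟨fun w => (Nat.card {g : Y // Cell R.nsys cs h X w g} : ℂ) / Nat.card (RGD.B cs h T X) *
    (f (gw w) * f (gw w)⁻¹), ?_, ?_, ?_⟩
  · have h1 := hcell 1 1 (cell_one_of_mem (one_mem _))
    have h2 : f 1 = 1 := hinj (by rw [← hfv, map_one, Module.End.one_apply, el_of_mem hvB, one_smul])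
    change (Nat.card {g : Y // Cell R.nsys cs h X (1 : W) g} : ℂ) / Nat.card (RGD.B cs h T X) * _ = 1
    rw [← h1, inv_one, h2, card_cell_one R, div_self hB0, mul_one, mul_one]
  · intro i w hl
    change (Nat.card {g : Y // Cell R.nsys cs h X (cs.simple i * w) g} : ℂ) / Nat.card (RGD.B cs h T X) * _ = _ *
      ((Nat.card {g : Y // Cell R.nsys cs h X w g} : ℂ) / Nat.card (RGD.B cs h T X) * _)
    have h1 := hcell (cs.simple i * w) (n i * gw w) (cell_of_rp ((rp_simple cs R.nsys i).mul (hgw w)))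
    obtain ⟨h2, h3⟩ := hm1 i w (gw w) (hgw w) hl
    rw [← h1, h2, h3, hni', card_cell_simple R hl, Nat.cast_mul]
    field_simp
  · -- the sum over the group
    have hsum : ∑ g : Y, f g * f g⁻¹ = ∑ w, (Nat.card {g : Y // Cell R.nsys cs h X w g} : ℂ) * (f (gw w) * f (gw w)⁻¹) := by
      rw [← Finset.sum_fiberwise Finset.univ wd]
      refine Finset.sum_congr rfl fun w _ => ?_
      have h1 : ∀ g ∈ Finset.univ.filter (fun g => wd g = w), f g * f g⁻¹ = f (gw w) * f (gw w)⁻¹ := by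
        intro g hg
        have h2 := (Finset.mem_filter.1 hg).2
        exact hcell w g (h2 ▸ hwd g)
      rw [Finset.sum_congr rfl h1, Finset.sum_const, nsmul_eq_mul, Nat.card_eq_fintype_card, Fintype.card_subtype]
      congr 3
      ext g
      simp only [Finset.mem_filter, Finset.mem_univ, true_and]
      exact ⟨fun h2 => h2 ▸ hwd g, fun h2 => Cell.unique R (hwd g) h2⟩
    obtain ⟨c, hc⟩ := schur hρ (f := RkOne.ss ρ (RGD.B cs h T X) (lamB R l)) fun g v => RkOne.ss_comm g v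
    have h1 : RkOne.ss ρ (RGD.B cs h T X) (lamB R l) = c • 1 := LinearMap.ext fun v => hc v
    have h2 := RkOne.trace_ss (ρ := ρ) (B := RGD.B cs h T X) (l := lamB R l)
    rw [← Vl_eq R, hE, finrank_span_singleton hv0, h1, map_smul, smul_eq_mul, Nat.cast_one, mul_one] at h2
    have h3 : LinearMap.trace ℂ V 1 = ρ.character 1 := by
      change _ = LinearMap.trace ℂ V (ρ 1)
      rw [show ρ 1 = 1 from map_one ρ]
    rw [h3] at h2
    have h4 : c = (Nat.card (RGD.B cs h T X) : ℂ)⁻¹ * ∑ g : Y, f g * f g⁻¹ := by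
      apply hinj
      have h5 : P (RkOne.ss ρ (RGD.B cs h T X) (lamB R l) v) = c • v := by
        rw [hc v, map_smul, el_of_mem hvB]
      rw [← h5]
      unfold RkOne.ss
      rw [finsum_eq_sum_of_fintype, LinearMap.smul_apply, LinearMap.sum_apply, map_smul, map_sum, mul_smul,
        Finset.sum_smul]
      congr 1
      refine Finset.sum_congr rfl fun g _ => ?_
      rw [Module.End.mul_apply, Module.End.mul_apply, ← hP, hfv g⁻¹, map_smul, map_smul, hfv g, smul_smul, mul_comm]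
    rw [h4] at h2
    have h5 : (Nat.card (RGD.B cs h T X) : ℂ) * ∑ w, ((Nat.card {g : Y // Cell R.nsys cs h X w g} : ℂ) /
        Nat.card (RGD.B cs h T X) * (f (gw w) * f (gw w)⁻¹)) = ∑ g : Y, f g * f g⁻¹ := by
      rw [hsum, Finset.mul_sum]
      refine Finset.sum_congr rfl fun w _ => ?_
      field_simp
    rw [h5]
    field_simp at h2
    rw [mul_comm]
    exact h2

end deg

end cells

end Cfsg.Agent.H985.VZ
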