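import Cfsg.Agent.H985.VZ.GTwo
import Cfsg.Agent.H650.OZ.TChar
import Cfsg.Agent.H631.VZ.Supp
import Cfsg.Agent.H364.OZ.G2End

/-!
# S4842: `G₂(q)` on the frame (helper985)

* `g2_frame` : `ρ` irreducible, `χ(t₀) ≠ 0`, `χ(t₁) ≠ 0` for elliptic elements of the two rank one Levi subgroups:
  the two possible degree equations.
* `g2_end` : `χ(1) = 1`, `χ(1) = q⁶` or `r ∣ χ(1)` for a primitive prime divisor `r` of `q⁶ - 1` (or `q³ - 1`).
-/

set_option autoImplicit false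
set_option linter.unusedSectionVars false

open Cfsg

namespace Cfsg.Agent.H985.VZ

open CoxeterSystem Cfsg.Agent.ChevalleyStructure.CoxeterGeom Cfsg.Agent.Tits.Roots Cfsg.Agent.Tits.Core
  Cfsg.Agent.Tits.Exchange Cfsg.Agent.Nodes.Reps Cfsg.Agent.Nodes.BNOf Cfsg.Agent.Nodes.StabComb
  Cfsg.Agent.Nodes.Bruhat Cfsg.Agent.Nodes.OppDec Cfsg.Agent.Nodes.LeviDec Module
open Cfsg.Agent.H650.OZ (TCo co co_mv co_inj eq_one_of_co act)

universe u v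

/-- the Cartan matrix of `G₂`, `α_0` short -/
def AG : Fin 2 → Fin 2 → ℤ := ![![2, -3], ![-1, 2]]

section abs

variable {G : Type*} [AddCommGroup G]

theorem fix0 {v : Fin 2 → G} (e : v = act AG 0 v) : v 0 = 0 := by
  have h1 := congrFun e 1
  simpa [act, AG] using h1

theorem fix1 {v : Fin 2 → G} (e : v = act AG 1 v) : v 1 = 0 := by
  have h1 := congrFun e 0
  have h2 := congrFun e 1
  simp only [act, AG, Matrix.cons_val_zero, Matrix.cons_val_one] at h1 h2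
  have h3 : (3 : ℤ) • v 1 = 0 := by
    have h4 : v 0 - (-3 : ℤ) • v 1 - v 0 = 0 := by rw [← h1, sub_self]
    have h5 : (3 : ℤ) • v 1 = v 0 - (-3 : ℤ) • v 1 - v 0 := by
      rw [neg_smul]
      abel
    rw [h5, h4]
  have h4 : (2 : ℤ) • v 1 = 0 := by
    have h5 : (2 : ℤ) • v 1 = v 1 - (v 1 - (2 : ℤ) • v 1) := by abel
    rw [h5, ← h2, sub_self]
  have h5 : v 1 = (3 : ℤ) • v 1 - (2 : ℤ) • v 1 := by
    rw [← sub_smul]
    norm_num
  rw [h5, h3, h4, sub_self]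

theorem eq_smul {v : Fin 2 → G} (h0 : v 0 = 0) : v = fun i => (![0, 1] : Fin 2 → ℤ) i • v 1 := by
  funext i
  fin_cases i
  · simp [h0]
  · simp

/-- the orbit of the second fundamental weight -/
def OG : List (Fin 2 → ℤ) := [![0, 1], ![3, -1], ![-3, 2], ![3, -2], ![-3, 1], ![0, -1]]

theorem OG_one : ∀ ν ∈ OG, ν 1 = 1 ∨ ν 1 = -1 ∨ ν 1 = 2 ∨ ν 1 = -2 := by decide

theorem OG_act : ∀ μ ∈ OG, ∀ j, act AG j μ ∈ OG := by decide

theorem two_c {c : G} {ν : Fin 2 → ℤ} (hν : ν ∈ OG) {v : Fin 2 → G} (hv : v = fun i => ν i • c) (h1 : v 1 = 0) :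
    (2 : ℤ) • c = 0 := by
  rw [hv] at h1
  simp only at h1
  rcases OG_one ν hν with h2 | h2 | h2 | h2 <;> rw [h2] at h1
  · rw [one_smul] at h1
    rw [h1, smul_zero]
  · rw [neg_smul, one_smul, neg_eq_zero] at h1
    rw [h1, smul_zero]
  · exact h1
  · rw [neg_smul, neg_eq_zero] at h1
    exact h1

theorem quad_facts {v v₁ v₂ : Fin 2 → G} (h0 : v 0 = 0) (h2 : (2 : ℤ) • v 1 = 0) (hc : v 1 ≠ 0) (e1 : v₁ = act AG 1 v)
    (e2 : v₂ = act AG 0 v₁) : v ≠ v₁ ∧ v₁ ≠ v₂ ∧ v₂ 1 = 0 ∧ act AG 1 v₂ = v₂ := by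
  have f0 : v₁ 0 = v 1 := by
    rw [e1]
    simp only [act, AG, Matrix.cons_val_zero, Matrix.cons_val_one]
    rw [h0, neg_smul, sub_neg_eq_add, zero_add, show (3 : ℤ) = 2 + 1 by norm_num, add_smul, h2, zero_add, one_smul]
  have f1 : v₁ 1 = v 1 := by
    rw [e1]
    change v 1 - (2 : ℤ) • v 1 = v 1
    rw [h2, sub_zero]
  have g1 : v₂ 1 = 0 := by
    rw [e2]
    simp only [act, AG, Matrix.cons_val_zero, Matrix.cons_val_one]
    rw [f0, f1, neg_smul, one_smul, sub_neg_eq_add, ← two_smul ℤ, h2]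
  refine ⟨fun h => ?_, fun h => ?_, g1, ?_⟩
  · rw [← h, h0] at f0
    exact hc f0.symm
  · rw [h, g1] at f1
    exact hc f1.symm
  · funext i
    simp only [act]
    rw [g1, smul_zero, sub_zero]

end abs

section comb

variable {W : Type*} [Group W] {M : CoxeterMatrix (Fin 2)} {cs : CoxeterSystem M W} {A : Fin 2 → Fin 2 → ℤ}
  {h : IsCartan M A}

theorem rep_three (hA : A = AG) (w : W) (x : Fin 2 → ℤ) : (3 : ℤ) ∣ rep cs h w x 0 ↔ (3 : ℤ) ∣ x 0 := by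
  obtain ⟨ω, rfl⟩ := cs.wordProd_surjective w
  induction ω with
  | nil => rw [wordProd_nil, map_one, Module.End.one_apply]
  | cons i ω ih =>
    rw [wordProd_cons, rep_mul_apply, ← ih]
    generalize rep cs h (cs.wordProd ω) x = y
    fin_cases i
    · have h1 : rep cs h (cs.simple 0) y 0 = -y 0 + 3 * y 1 := by
        rw [rep_simple_eq, Pi.sub_apply, Pi.smul_apply, sr_self]
        unfold pairing
        rw [Fin.sum_univ_two, hA]
        simp [AG]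
        ring
      change (3 : ℤ) ∣ rep cs h (cs.simple 0) y 0 ↔ _
      rw [h1]
      omega
    · have h1 : rep cs h (cs.simple 1) y 0 = y 0 := rep_simple_apply cs h 1 y 0 (by decide)
      change (3 : ℤ) ∣ rep cs h (cs.simple 1) y 0 ↔ _
      rw [h1]

theorem rep_ne_G2 (hA : A = AG) (w : W) : rep cs h w (sr 0) ≠ sr 1 := by
  intro h1
  have h2 := (rep_three (cs := cs) (h := h) hA w (sr 0)).1 (by
    rw [h1, sr_ne (by decide)]
    exact dvd_zero 3)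
  rw [sr_self] at h2
  omega

end comb

variable {W : Type*} {Y : Type u} [Group W] [Group Y] {M : CoxeterMatrix (Fin 2)}
  {cs : CoxeterSystem M W} {A : Fin 2 → Fin 2 → ℤ} {h : IsCartan M A} {p : ℕ} {T : Subgroup Y} {n : Fin 2 → Y}
  {X : (Fin 2 → ℤ) → Subgroup Y} (R : RGD cs h p T n X) [Finite W] [Finite Y] {V : Type v} [AddCommGroup V]
  [Module ℂ V] {ρ : Representation ℂ Y V} {E : Type*} [CommGroup E] {hh : Fin 2 → E →* T}

include R

omit [Finite W] [Finite Y] in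
theorem mv_triv (w : W) : Mv cs R.nsys w (1 : T →* ℂˣ) 1 := by
  intro g _ s t _
  rfl

omit R in
theorem triv_one (i : Fin 2) : Triv X (1 : T →* ℂˣ) i := fun _ _ => rfl

omit R [Finite W] [Finite Y] in
theorem triv_of_co {l : T →* ℂˣ} {i : Fin 2} (hL : ∀ t : T, (t : Y) ∈ Li X i → t ∈ (hh i).range)
    (h0 : co hh l i = 0) : Triv X l i := by
  intro t ht
  obtain ⟨x, rfl⟩ := hL t ht
  have h1 : (co hh l i).toMul x = 1 := by rw [h0]; rfl
  exact h1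

/-- **`G₂(q)` on the frame.** -/
theorem g2_frame [FiniteDimensional ℂ V] (hA : A = AG) (hM : M 0 1 = 6) (hG : GG cs h T X = ⊤)
    (hT : ∀ s ∈ T, ∀ t ∈ T, s * t = t * s) (C : TCo A T n hh) (hρ : ρ.IsIrreducible) (hn : ∀ i, n i ∈ Li X i)
    (hL : ∀ i, ∀ t : T, (t : Y) ∈ Li X i → t ∈ (hh i).range) {q : ℕ} (hq : ∀ i, Nat.card (X (sr i)) = q) (hq1 : 1 < q)
    {t₀ t₁ : Y} (ht₀ : Ell cs h T X {0} t₀) (hχ₀ : ρ.character t₀ ≠ 0) (ht₁ : Ell cs h T X {1} t₁)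
    (hχ₁ : ρ.character t₁ ≠ 0) : ∃ y z : ℂ, (y = q ∨ y = (q : ℂ)⁻¹) ∧ (z = q ∨ z = (q : ℂ)⁻¹) ∧
      (ρ.character 1 * ((1 + y) * (1 + z) * ∑ i ∈ Finset.range 3, (y * z) ^ i) =
        (1 + q : ℂ) * (1 + q) * ∑ i ∈ Finset.range 3, ((q : ℂ) * q) ^ i ∨
      ρ.character 1 * ((1 + y) * (1 + z)) = (1 + q : ℂ) ^ 2 * (1 + q ^ 2 + q ^ 4)) := by
  have hqa : qq X 0 = q := hq 0
  have hqb : qq X 1 = q := hq 1
  have hI : ∀ i : Fin 2, i = 0 ∨ i = 1 := by decide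
  have hVU : VU cs h X ρ ≠ ⊥ := H631.VZ.VU_ne_bot R hG hρ (a := 0) (b := 1) (fun w => rep_ne_G2 hA w)
    (ht₀.toFree.fx_ne_bot R hχ₀) (ht₁.toFree.fx_ne_bot R hχ₁)
  obtain ⟨l₀, hl₀, h00⟩ := exists_fix R hG hT hρ hVU ht₀ hχ₀
  obtain ⟨l', hl', h11⟩ := exists_fix R hG hT hρ hVU ht₁ hχ₁
  obtain ⟨w, hw⟩ := exists_mv R hG hρ hl₀ hl'
  -- the coordinates
  subst hA
  have c0 := fix0 (co_mv C h h00)
  have c1 := fix1 (co_mv C h h11)
  have hco := eq_smul c0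
  -- the orbit
  obtain ⟨ν, hν, hlν⟩ := H650.OZ.exists_orb C h (c := co hh l₀ 1) OG
    (fun μ hμ j => ⟨act AG j μ, OG_act μ hμ j, fun i => rfl⟩) w (μ := ![0, 1]) (by decide) hco hw
  have h2c := two_c hν hlν c1
  by_cases hc0 : co hh l₀ 1 = 0
  · -- the trivial character
    have hl1 : l₀ = 1 := eq_one_of_co C fun i => by
      fin_cases i
      · exact c0
      · exact hc0
    subst hl1
    obtain ⟨-, -, ya, yb, hya, hyb, e⟩ := rank_two R hG hT hρ (a := 0) (b := 1) (by decide) hI (m := 3) (by rw [hM])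
      (by omega) hl₀ (mv_triv R _) (mv_triv R _) ht₀ hχ₀
    have k1 := hya.triv (hn 0) (triv_one 0)
    have k2 := hyb.triv (hn 1) (triv_one 1)
    rw [hqa] at k1 e
    rw [hqb] at k2 e
    exact ⟨ya, yb, k1, k2, Or.inl e⟩
  · obtain ⟨l₁, h01⟩ := exists_mv_to (cs := cs) (hN := R.nsys) (cs.simple 1) l₀
    obtain ⟨l₂, h12⟩ := exists_mv_to (cs := cs) (hN := R.nsys) (cs.simple 0) l₁
    obtain ⟨hn0, hn1, g1, g2⟩ := quad_facts c0 h2c hc0 (co_mv C h h01) (co_mv C h h12)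
    have h22 : Mv cs R.nsys (cs.simple 1) l₂ l₂ := by
      obtain ⟨l₃, h23⟩ := exists_mv_to (cs := cs) (hN := R.nsys) (cs.simple 1) l₂
      have h3 : l₃ = l₂ := co_inj C (by rw [co_mv C h h23, g2])
      rwa [h3] at h23
    obtain ⟨y, z, hy, hz, e⟩ := g2_quad' R hG hρ (a := 0) (b := 1) (by decide) hI hM h00 h01 h12 h22
      (fun e => hn0 (by rw [e])) (fun e => hn1 (by rw [e])) (hn 0) (triv_of_co (hL 0) c0) (hn 1)
      (triv_of_co (hL 1) g1) hq1 hqa hqb hl₀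
    exact ⟨y, z, hy, hz, Or.inr e⟩

/-- **the degrees** -/
theorem g2_end [FiniteDimensional ℂ V] (hA : A = AG) (hM : M 0 1 = 6) (hG : GG cs h T X = ⊤)
    (hT : ∀ s ∈ T, ∀ t ∈ T, s * t = t * s) (C : TCo A T n hh) (hρ : ρ.IsIrreducible) (hn : ∀ i, n i ∈ Li X i)
    (hL : ∀ i, ∀ t : T, (t : Y) ∈ Li X i → t ∈ (hh i).range) {π a : ℕ} (hπ : 2 ≤ π) (ha : 0 < a)
    (hq : ∀ i, Nat.card (X (sr i)) = π ^ a)
    {t₀ t₁ : Y} (ht₀ : Ell cs h T X {0} t₀) (hχ₀ : ρ.character t₀ ≠ 0) (ht₁ : Ell cs h T X {1} t₁)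
    (hχ₁ : ρ.character t₁ ≠ 0) {r : ℕ} (hr : r.Prime)
    (ho : orderOf (π : ZMod r) = a * 6 ∨ orderOf (π : ZMod r) = a * 3) :
    finrank ℂ V = 1 ∨ finrank ℂ V = (π ^ a) ^ 6 ∨ r ∣ finrank ℂ V := by
  have hq1 : 1 < π ^ a := lt_of_lt_of_le hπ (Nat.le_self_pow ha.ne' π)
  have h1 : ρ.character 1 = (finrank ℂ V : ℂ) := by
    change LinearMap.trace ℂ V (ρ 1) = _
    rw [show ρ 1 = 1 from map_one ρ]
    exact LinearMap.trace_one ℂ V
  obtain ⟨y, z, hy, hz, e | e⟩ := g2_frame R hA hM hG hT C hρ hn hL hq hq1 ht₀ hχ₀ ht₁ hχ₁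
  · rw [h1] at e
    exact H364.OZ.G2End.lin_dvd hr ha hπ ho hy hz e
  · rw [h1] at e
    exact Or.inr (Or.inr (H364.OZ.G2End.quad_dvd hr ha hπ ho hy hz (by exact_mod_cast e)))

end Cfsg.Agent.H985.VZ
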